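import Mathlib
import Cfsg.Agent.Transfer.Extraspecial
import Cfsg.Agent.Lib.NormalAbelian

/-!
# Groups whose centre has index `p ^ 2`

`card_commutator_of_index_center` : if `|G : Z(G)| = p ^ 2` then `|G'| = p`.
-/

set_option autoImplicit false

namespace Cfsg.Agent.H626.OrderPFour

open Subgroup
open scoped commutatorElement
open Cfsg.Agent.Transfer.Extraspecial

/-- A group whose centre has index `p ^ 2` has all commutators central. -/
theorem comm_mem_center_of_index {G : Type*} [Group G] [Finite G] {p : ℕ} [hp : Fact p.Prime]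
    (h : (center G).index = p ^ 2) (a b : G) : ⁅a, b⁆ ∈ center G := by
  have hcard : Nat.card (G ⧸ center G) = p ^ 2 := by
    rw [← h]; rfl
  have hcm : IsMulCommutative (G ⧸ center G) :=
    IsPGroup.isMulCommutative_of_card_eq_prime_sq hcard
  have hcomm : ∀ x y : G ⧸ center G, x * y = y * x := fun x y => hcm.is_comm.comm x y
  have h1 : ((⁅a, b⁆ : G) : G ⧸ center G) = 1 := by
    have h2 := hcomm (a : G ⧸ center G) (b : G ⧸ center G)
    have h3 : ((⁅a, b⁆ : G) : G ⧸ center G) = ⁅(a : G ⧸ center G), (b : G ⧸ center G)⁆ :=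
      map_commutatorElement (QuotientGroup.mk' (center G)) a b
    rw [h3, commutatorElement_eq_one_iff_mul_comm]
    exact h2
  exact (QuotientGroup.eq_one_iff _).1 h1

/-- If `|G : Z(G)| = p ^ 2` then `|G'| = p`. -/
theorem card_commutator_of_index_center {G : Type*} [Group G] [Finite G] {p : ℕ}
    [hp : Fact p.Prime] (h : (center G).index = p ^ 2) : Nat.card (commutator G) = p := by
  have hc : ∀ a b : G, ⁅a, b⁆ ∈ center G := comm_mem_center_of_index h
  have hne : center G ≠ ⊤ := by
    intro h1
    rw [h1, index_top] at h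
    have := hp.out.one_lt
    have : 1 < p ^ 2 := Nat.one_lt_pow (by norm_num) this
    omega
  obtain ⟨x, hx⟩ : ∃ x : G, x ∉ center G := by
    by_contra hcon
    push Not at hcon
    exact hne (eq_top_iff.2 fun y _ => hcon y)
  set f := commHom' hc x with hf
  set K : Subgroup G := f.range.map (commutator G).subtype with hK
  have hKcard : Nat.card K = f.ker.index := by
    rw [index_ker, hK]
    exact (Nat.card_congr (f.range.equivMapOfInjective _ (subtype_injective _)).toEquiv).symm
  have hZker : center G ≤ f.ker := by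
    intro z hz
    rw [hf, mem_ker_commHom']
    exact ((mem_center_iff.1 hz) x).symm
  have hxker : x ∈ f.ker := by
    rw [hf, mem_ker_commHom']
  have hker1 : f.ker.index ≠ 1 := by
    intro h1
    rw [index_eq_one] at h1
    apply hx
    rw [mem_center_iff]
    intro g
    have : g ∈ f.ker := h1 ▸ mem_top g
    rwa [hf, mem_ker_commHom'] at this
  have hkey : ∀ A : Subgroup G, center G ≤ A → x ∈ A → A.index ∣ p := by
    intro A hA hxA
    have h1 : A.index ∣ p ^ 2 := h ▸ index_dvd_of_le hA
    obtain ⟨k, hk, hk'⟩ := (Nat.dvd_prime_pow hp.out).1 h1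
    have h2 : (center G).relIndex A * A.index = (center G).index := relIndex_mul_index hA
    rw [h, hk'] at h2
    interval_cases k
    · simp [hk']
    · simp [hk']
    · exfalso
      have h3 : (center G).relIndex A = 1 := by
        have : 0 < p ^ 2 := pow_pos hp.out.pos 2
        exact Nat.eq_of_mul_eq_mul_right this (by rw [h2, one_mul])
      rw [relIndex_eq_one] at h3
      exact hx (h3 hxA)
  have hkerp : f.ker.index = p := ((Nat.dvd_prime hp.out).1 (hkey _ hZker hxker)).resolve_left hker1
  -- `K` is central
  have hKmem : ∀ k ∈ K, ∃ g : G, k = ⁅g, x⁆ := by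
    rintro k ⟨c, ⟨g, rfl⟩, rfl⟩
    exact ⟨g, rfl⟩
  have hKc : K ≤ center G := by
    intro k hk
    obtain ⟨g, rfl⟩ := hKmem k hk
    exact hc g x
  have hKn : K.Normal := ⟨fun k hk g => by
    rw [(mem_center_iff.1 (hKc hk)) g, mul_inv_cancel_right]
    exact hk⟩
  have hgx : ∀ g : G, ⁅g, x⁆ ∈ K := fun g => ⟨f g, ⟨g, rfl⟩, rfl⟩
  -- `G / K` is commutative
  have hquot : ∀ a b : G ⧸ K, a * b = b * a := by
    have h1 : ((center (G ⧸ K)).comap (QuotientGroup.mk' K)).index ∣ p := by
      apply hkey
      · intro z hz
        rw [mem_comap, mem_center_iff]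
        intro q
        obtain ⟨g, rfl⟩ := QuotientGroup.mk'_surjective K q
        rw [← map_mul, ← map_mul, (mem_center_iff.1 hz) g]
      · rw [mem_comap, mem_center_iff]
        intro q
        obtain ⟨g, rfl⟩ := QuotientGroup.mk'_surjective K q
        rw [← commutatorElement_eq_one_iff_mul_comm, ← map_commutatorElement]
        exact (QuotientGroup.eq_one_iff _).2 (hgx g)
    rw [index_comap_of_surjective _ (QuotientGroup.mk'_surjective K)] at h1
    have : IsCyclic ((G ⧸ K) ⧸ center (G ⧸ K)) := isCyclic_of_card_dvd_prime (p := p) h1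
    have hcm : IsMulCommutative (G ⧸ K) :=
      MonoidHom.isMulCommutative_of_isCyclic_of_ker_le_center (QuotientGroup.mk' (center (G ⧸ K)))
        (by rw [QuotientGroup.ker_mk'])
    exact fun a b => hcm.is_comm.comm a b
  have hle : commutator G ≤ K := by
    rw [commutator_def, commutator_le]
    intro a _ b _
    have h1 := hquot (a : G ⧸ K) (b : G ⧸ K)
    rw [← commutatorElement_eq_one_iff_mul_comm] at h1
    have h2 : ((⁅a, b⁆ : G) : G ⧸ K) = ⁅(a : G ⧸ K), (b : G ⧸ K)⁆ :=
      map_commutatorElement (QuotientGroup.mk' K) a b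
    rw [← h2] at h1
    exact (QuotientGroup.eq_one_iff _).1 h1
  have hge : K ≤ commutator G := by
    rintro k ⟨c, _, rfl⟩
    exact c.2
  rw [le_antisymm hle hge, hKcard, hkerp]

/-- In a group of order `p ^ 4`, `|G'| = p` iff `|G : Z(G)| = p ^ 2`. -/
theorem card_commutator_iff {P : Type*} [Group P] [Finite P] (p : ℕ) [hp : Fact p.Prime]
    (hP : Nat.card P = p ^ 4) :
    Nat.card (commutator P) = p ↔ (Subgroup.center P).index = p ^ 2 := by
  refine ⟨fun h => ?_, card_commutator_of_index_center⟩
  have hpg : IsPGroup p P := IsPGroup.of_card hP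
  have : Nontrivial P := by
    rw [← Finite.one_lt_card_iff_nontrivial, hP]
    exact Nat.one_lt_pow (by norm_num) hp.out.one_lt
  -- a normal subgroup of order `p` is central
  have hc' : commutator P ≤ center P := by
    have h1 : Nat.card (commutator P) = p := h
    have : Nontrivial (commutator P) := by
      rw [← Finite.one_lt_card_iff_nontrivial, h1]
      exact hp.out.one_lt
    have hnil : Group.IsNilpotent P := hpg.isNilpotent
    have h2 : (commutator P ⊓ center P : Subgroup P) ≠ ⊥ :=
      Cfsg.Agent.Lib.NormalAbelian.normal_inf_center_ne_bot _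
        ((Subgroup.nontrivial_iff_ne_bot _).1 this)
    have h3 : Nat.card (commutator P ⊓ center P : Subgroup P) ∣ p := by
      rw [← h1]
      exact card_dvd_of_le inf_le_left
    have h4 : Nat.card (commutator P ⊓ center P : Subgroup P) = p := by
      rcases (Nat.dvd_prime hp.out).1 h3 with h5 | h5
      · exact absurd (card_eq_one.1 h5) h2
      · exact h5
    have h5 : (commutator P ⊓ center P : Subgroup P) = commutator P :=
      eq_of_le_of_card_ge inf_le_left (by rw [h4, h1])
    exact inf_eq_left.1 h5
  have hc : ∀ a b : P, ⁅a, b⁆ ∈ center P := fun a b => hc' (comm_mem a b)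
  obtain ⟨n, hn⟩ := exists_index_center_eq (p := p) _ (P := P) rfl hc (by rw [h])
  have hZ : (center P).index * Nat.card (center P) = p ^ 4 := by
    rw [index_mul_card, hP]
  have : Nontrivial (center P) := hpg.center_nontrivial
  have hZ1 : 1 < Nat.card (center P) := Finite.one_lt_card
  have hn4 : 2 * n < 4 := by
    by_contra hcon
    push Not at hcon
    have h1 : p ^ 4 ≤ p ^ (2 * n) := Nat.pow_le_pow_right hp.out.pos hcon
    have h2 : 0 < p ^ 4 := pow_pos hp.out.pos 4
    rw [hn] at hZ
    nlinarith
  have hn2 : n < 2 := by omega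
  interval_cases n
  · exfalso
    rw [mul_zero, pow_zero, index_eq_one] at hn
    have h1 : commutator P = ⊥ := by
      rw [eq_bot_iff, commutator_def, commutator_le]
      intro a _ b _
      rw [mem_bot, commutatorElement_eq_one_iff_mul_comm]
      exact ((mem_center_iff.1 (hn ▸ mem_top a : a ∈ center P)) b).symm
    rw [h1, card_bot] at h
    exact hp.out.one_lt.ne h
  · simpa using hn

end Cfsg.Agent.H626.OrderPFour
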